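import Cfsg.Agent.H167.Co3.X0Gen
import Cfsg.Agent.H553.KKL.E7One

/-!
# S1920, X0 for `E₇(q)`, `q` odd

* `inv_dim` : the involutions of `E₇(q)` have `(-1)`-eigenspaces of dimension `54`, `64`, `70` on the Lie algebra;
* `four_dim` : `g * g = z`, `m(z) = 64`: `m(g) ∈ {2, 20, 30, 32, 34, 36}`;
* `conj_of_64` : an involution `z` with `m(z) = 64` is classical.
-/

set_option autoImplicit false
set_option linter.unusedSectionVars false

namespace Cfsg.Agent.H167.Co3

open CoxeterSystem Cfsg Cfsg.Lie Cfsg.Lie.ChevalleyDatum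
open Cfsg.Agent.ChevalleyStructure Cfsg.Agent.ChevalleyStructure.Elts Cfsg.Agent.ChevalleyStructure.CoxeterGeom
  Cfsg.Agent.ChevalleyStructure.CoxeterGeomTypes Cfsg.Agent.ChevalleyStructure.NPerm
open Cfsg.Agent.Tits.Roots Cfsg.Agent.Nodes Cfsg.Agent.Nodes.Reps Cfsg.Agent.Nodes.BNOf
  Cfsg.Agent.Nodes.RGDChev Cfsg.Agent.Nodes.Bruhat
open Module

/-- the coefficients of the positive roots -/
def A7 : List (List ℕ) := [[2, 2, 3, 4, 3, 2, 1],
  [1, 2, 3, 4, 3, 2, 1],
  [1, 2, 2, 4, 3, 2, 1],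
  [1, 2, 2, 3, 3, 2, 1],
  [1, 2, 2, 3, 2, 2, 1],
  [1, 2, 2, 3, 2, 1, 1],
  [1, 2, 2, 3, 2, 1, 0],
  [1, 1, 2, 3, 3, 2, 1],
  [1, 1, 2, 3, 2, 2, 1],
  [1, 1, 2, 3, 2, 1, 1],
  [1, 1, 2, 3, 2, 1, 0],
  [1, 1, 2, 2, 2, 2, 1],
  [1, 1, 2, 2, 2, 1, 1],
  [1, 1, 2, 2, 2, 1, 0],
  [1, 1, 2, 2, 1, 1, 1],
  [1, 1, 2, 2, 1, 1, 0],
  [1, 1, 2, 2, 1, 0, 0],
  [1, 1, 1, 2, 2, 2, 1],
  [1, 1, 1, 2, 2, 1, 1],
  [1, 1, 1, 2, 2, 1, 0],
  [1, 1, 1, 2, 1, 1, 1],
  [1, 1, 1, 2, 1, 1, 0],
  [1, 1, 1, 2, 1, 0, 0],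
  [1, 1, 1, 1, 1, 1, 1],
  [1, 1, 1, 1, 1, 1, 0],
  [1, 1, 1, 1, 1, 0, 0],
  [1, 1, 1, 1, 0, 0, 0],
  [1, 0, 1, 1, 1, 1, 1],
  [1, 0, 1, 1, 1, 1, 0],
  [1, 0, 1, 1, 1, 0, 0],
  [1, 0, 1, 1, 0, 0, 0],
  [1, 0, 1, 0, 0, 0, 0],
  [1, 0, 0, 0, 0, 0, 0],
  [0, 1, 1, 2, 2, 2, 1],
  [0, 1, 1, 2, 2, 1, 1],
  [0, 1, 1, 2, 2, 1, 0],
  [0, 1, 1, 2, 1, 1, 1],
  [0, 1, 1, 2, 1, 1, 0],
  [0, 1, 1, 2, 1, 0, 0],
  [0, 1, 1, 1, 1, 1, 1],
  [0, 1, 1, 1, 1, 1, 0],
  [0, 1, 1, 1, 1, 0, 0],
  [0, 1, 1, 1, 0, 0, 0],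
  [0, 1, 0, 1, 1, 1, 1],
  [0, 1, 0, 1, 1, 1, 0],
  [0, 1, 0, 1, 1, 0, 0],
  [0, 1, 0, 1, 0, 0, 0],
  [0, 1, 0, 0, 0, 0, 0],
  [0, 0, 1, 1, 1, 1, 1],
  [0, 0, 1, 1, 1, 1, 0],
  [0, 0, 1, 1, 1, 0, 0],
  [0, 0, 1, 1, 0, 0, 0],
  [0, 0, 1, 0, 0, 0, 0],
  [0, 0, 0, 1, 1, 1, 1],
  [0, 0, 0, 1, 1, 1, 0],
  [0, 0, 0, 1, 1, 0, 0],
  [0, 0, 0, 1, 0, 0, 0],
  [0, 0, 0, 0, 1, 1, 1],
  [0, 0, 0, 0, 1, 1, 0],
  [0, 0, 0, 0, 1, 0, 0],
  [0, 0, 0, 0, 0, 1, 1],
  [0, 0, 0, 0, 0, 1, 0],
  [0, 0, 0, 0, 0, 0, 1]]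

/-- the shifts -/
def sh7 : List ℕ := [0, 6, 12, 18, 24, 30, 36, 42, 48, 54, 60, 66, 72, 78, 84, 90, 96, 102, 108, 114, 120, 126, 132, 138, 144, 150, 156, 162, 168, 174, 180, 186, 192, 198, 204, 210, 216, 222, 228, 234, 240, 246, 252, 258, 264, 270, 276, 282, 288, 294, 300, 306, 312, 318, 324, 330, 336, 342, 348, 354, 360, 366, 372]

def P0 : ℕ := 6376738270869009029928421001353819851278583308661876330562
def P1 : ℕ := 7894019625552168923101305519763275064151660134304457238539493104658315565870745133186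
def P2 : ℕ := 8476139023538163248446621291051913679407647955461869602870442690803822680893579383009719099587
def P3 : ℕ := 142206007032669154468503852253812791192132573417249602240470538588350460712662296519933774493750411524
def P4 : ℕ := 37278313710767889466606771157568382555473949811285022006064155930134344045292044330260065178572029164269763
def P5 : ℕ := 152655850213966835831277024525535515754393195482808562440052102521128747370928146388202687130554851550588051586
def P6 : ℕ := 9621978970583374237371178324826440395142401769489752557674206114497743067381342074260344076983860509530856362049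

/-- number of fields `≡ 2 (mod 4)` -/
noncomputable def cq (X : ℕ) : ℕ :=
  List.rec 0 (fun c _ ih => Nat.add ih (Nat.land (Nat.shiftRight 4 (Nat.land (Nat.shiftRight X c) 3)) 1)) sh7

/-- number of odd fields -/
noncomputable def co (X : ℕ) : ℕ :=
  List.rec 0 (fun c _ ih => Nat.add ih (Nat.land (Nat.shiftRight X c) 1)) sh7

/-- the packed values -/
def X7 (a b c d e f g : ℕ) : ℕ := a * P0 + b * P1 + c * P2 + d * P3 + e * P4 + f * P5 + g * P6

/-- the test -/
noncomputable def ok7 (X : ℕ) : Bool :=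
  (!(Nat.beq (co X) 32)) || Nat.beq (Nat.land (Nat.shiftRight 492546 (cq X)) 1) 1

theorem tab_four_all {p : ℕ → Bool} (h0 : p 0 = true) (h1 : p 1 = true) (h2 : p 2 = true) (h3 : p 3 = true) :
    (List.range 4).all p = true := by
  refine List.all_eq_true.2 fun x hx => ?_
  have h4 : x < 4 := List.mem_range.1 hx
  have h5 : x = 0 ∨ x = 1 ∨ x = 2 ∨ x = 3 := by omega
  rcases h5 with h | h | h | h
  · rw [h]; exact h0
  · rw [h]; exact h1
  · rw [h]; exact h2
  · rw [h]; exact h3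

theorem tab_four00 : ((List.range 4).all fun c =>
    (List.range 4).all fun d => (List.range 4).all fun e => (List.range 4).all fun f => (List.range 4).all fun g =>
    ok7 (X7 0 0 c d e f g)) = true := by
  decide +kernel

theorem tab_four01 : ((List.range 4).all fun c =>
    (List.range 4).all fun d => (List.range 4).all fun e => (List.range 4).all fun f => (List.range 4).all fun g =>
    ok7 (X7 0 1 c d e f g)) = true := by
  decide +kernel

theorem tab_four02 : ((List.range 4).all fun c =>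
    (List.range 4).all fun d => (List.range 4).all fun e => (List.range 4).all fun f => (List.range 4).all fun g =>
    ok7 (X7 0 2 c d e f g)) = true := by
  decide +kernel

theorem tab_four03 : ((List.range 4).all fun c =>
    (List.range 4).all fun d => (List.range 4).all fun e => (List.range 4).all fun f => (List.range 4).all fun g =>
    ok7 (X7 0 3 c d e f g)) = true := by
  decide +kernel

theorem tab_four10 : ((List.range 4).all fun c =>
    (List.range 4).all fun d => (List.range 4).all fun e => (List.range 4).all fun f => (List.range 4).all fun g =>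
    ok7 (X7 1 0 c d e f g)) = true := by
  decide +kernel

theorem tab_four11 : ((List.range 4).all fun c =>
    (List.range 4).all fun d => (List.range 4).all fun e => (List.range 4).all fun f => (List.range 4).all fun g =>
    ok7 (X7 1 1 c d e f g)) = true := by
  decide +kernel

theorem tab_four12 : ((List.range 4).all fun c =>
    (List.range 4).all fun d => (List.range 4).all fun e => (List.range 4).all fun f => (List.range 4).all fun g =>
    ok7 (X7 1 2 c d e f g)) = true := by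
  decide +kernel

theorem tab_four13 : ((List.range 4).all fun c =>
    (List.range 4).all fun d => (List.range 4).all fun e => (List.range 4).all fun f => (List.range 4).all fun g =>
    ok7 (X7 1 3 c d e f g)) = true := by
  decide +kernel

theorem tab_four20 : ((List.range 4).all fun c =>
    (List.range 4).all fun d => (List.range 4).all fun e => (List.range 4).all fun f => (List.range 4).all fun g =>
    ok7 (X7 2 0 c d e f g)) = true := by
  decide +kernel

theorem tab_four21 : ((List.range 4).all fun c =>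
    (List.range 4).all fun d => (List.range 4).all fun e => (List.range 4).all fun f => (List.range 4).all fun g =>
    ok7 (X7 2 1 c d e f g)) = true := by
  decide +kernel

theorem tab_four22 : ((List.range 4).all fun c =>
    (List.range 4).all fun d => (List.range 4).all fun e => (List.range 4).all fun f => (List.range 4).all fun g =>
    ok7 (X7 2 2 c d e f g)) = true := by
  decide +kernel

theorem tab_four23 : ((List.range 4).all fun c =>
    (List.range 4).all fun d => (List.range 4).all fun e => (List.range 4).all fun f => (List.range 4).all fun g =>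
    ok7 (X7 2 3 c d e f g)) = true := by
  decide +kernel

theorem tab_four30 : ((List.range 4).all fun c =>
    (List.range 4).all fun d => (List.range 4).all fun e => (List.range 4).all fun f => (List.range 4).all fun g =>
    ok7 (X7 3 0 c d e f g)) = true := by
  decide +kernel

theorem tab_four31 : ((List.range 4).all fun c =>
    (List.range 4).all fun d => (List.range 4).all fun e => (List.range 4).all fun f => (List.range 4).all fun g =>
    ok7 (X7 3 1 c d e f g)) = true := by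
  decide +kernel

theorem tab_four32 : ((List.range 4).all fun c =>
    (List.range 4).all fun d => (List.range 4).all fun e => (List.range 4).all fun f => (List.range 4).all fun g =>
    ok7 (X7 3 2 c d e f g)) = true := by
  decide +kernel

theorem tab_four33 : ((List.range 4).all fun c =>
    (List.range 4).all fun d => (List.range 4).all fun e => (List.range 4).all fun f => (List.range 4).all fun g =>
    ok7 (X7 3 3 c d e f g)) = true := by
  decide +kernel

theorem tab_four : ((List.range 4).all fun a => (List.range 4).all fun b => (List.range 4).all fun c =>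
    (List.range 4).all fun d => (List.range 4).all fun e => (List.range 4).all fun f => (List.range 4).all fun g =>
    ok7 (X7 a b c d e f g)) = true :=
  tab_four_all (tab_four_all tab_four00 tab_four01 tab_four02 tab_four03) (tab_four_all tab_four10 tab_four11 tab_four12 tab_four13)
    (tab_four_all tab_four20 tab_four21 tab_four22 tab_four23) (tab_four_all tab_four30 tab_four31 tab_four32 tab_four33)

/-! ### packed numbers -/

/-- packing -/
def pk (f : ℕ → ℕ) (n : ℕ) : ℕ := ∑ i ∈ Finset.range n, f i * 64 ^ i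

theorem pk_get (f : ℕ → ℕ) (hf : ∀ i, f i < 64) : ∀ (s n : ℕ), s < n → pk f n / 64 ^ s % 64 = f s := by
  have hsucc : ∀ (f : ℕ → ℕ) (n : ℕ), pk f (n + 1) = f 0 + 64 * pk (fun i => f (i + 1)) n := by
    intro f n
    unfold pk
    rw [Finset.sum_range_succ', pow_zero, mul_one, add_comm, Finset.mul_sum]
    congr 1
    exact Finset.sum_congr rfl fun i _ => by rw [pow_succ]; ring
  intro s
  induction s generalizing f with
  | zero =>
    intro n hn
    obtain ⟨m, rfl⟩ : ∃ m, n = m + 1 := ⟨n - 1, by omega⟩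
    rw [hsucc, pow_zero, Nat.div_one, Nat.add_mul_mod_self_left, Nat.mod_eq_of_lt (hf 0)]
  | succ s ih =>
    intro n hn
    obtain ⟨m, rfl⟩ : ∃ m, n = m + 1 := ⟨n - 1, by omega⟩
    rw [hsucc, pow_succ', ← Nat.div_div_eq_div_mul, Nat.add_mul_div_left _ _ (by norm_num), Nat.div_eq_of_lt (hf 0),
      zero_add]
    exact ih (fun i => f (i + 1)) (fun i => hf _) m (by omega)

/-- the coefficients -/
def c7 (s j : ℕ) : ℕ := (A7.getD s []).getD j 0

theorem sh7_eq : sh7 = (List.range 63).map fun s => 6 * s := by decide +kernel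

theorem P_spec : P0 = pk (fun s => c7 s 0) 63 ∧ P1 = pk (fun s => c7 s 1) 63 ∧ P2 = pk (fun s => c7 s 2) 63 ∧
    P3 = pk (fun s => c7 s 3) 63 ∧ P4 = pk (fun s => c7 s 4) 63 ∧ P5 = pk (fun s => c7 s 5) 63 ∧
    P6 = pk (fun s => c7 s 6) 63 := by decide +kernel

/-- the values -/
def va (a b c d e f g s : ℕ) : ℕ :=
  a * c7 s 0 + b * c7 s 1 + c * c7 s 2 + d * c7 s 3 + e * c7 s 4 + f * c7 s 5 + g * c7 s 6

theorem X7_eq (a b c d e f g : ℕ) : X7 a b c d e f g = pk (va a b c d e f g) 63 := by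
  unfold X7
  obtain ⟨h0, h1, h2, h3, h4, h5, h6⟩ := P_spec
  rw [h0, h1, h2, h3, h4, h5, h6]
  unfold pk
  simp only [Finset.mul_sum, ← Finset.sum_add_distrib]
  refine Finset.sum_congr rfl fun s _ => ?_
  unfold va
  ring

theorem c7_le : ∀ s, c7 s 0 + c7 s 1 + c7 s 2 + c7 s 3 + c7 s 4 + c7 s 5 + c7 s 6 ≤ 17 := by
  intro s
  by_cases hs : s < 63
  · revert s
    decide +kernel
  · have h : A7.getD s [] = [] := List.getD_eq_default _ _ (by
      have : A7.length = 63 := by decide +kernel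
      omega)
    unfold c7
    rw [h]
    simp

theorem va_lt {a b c d e f g : ℕ} (ha : a < 4) (hb : b < 4) (hc : c < 4) (hd : d < 4) (he : e < 4) (hf : f < 4)
    (hg : g < 4) (s : ℕ) : va a b c d e f g s < 64 := by
  have h := c7_le s
  unfold va
  have h0 : a * c7 s 0 ≤ 3 * c7 s 0 := Nat.mul_le_mul_right _ (by omega)
  have h1 : b * c7 s 1 ≤ 3 * c7 s 1 := Nat.mul_le_mul_right _ (by omega)
  have h2 : c * c7 s 2 ≤ 3 * c7 s 2 := Nat.mul_le_mul_right _ (by omega)
  have h3 : d * c7 s 3 ≤ 3 * c7 s 3 := Nat.mul_le_mul_right _ (by omega)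
  have h4 : e * c7 s 4 ≤ 3 * c7 s 4 := Nat.mul_le_mul_right _ (by omega)
  have h5 : f * c7 s 5 ≤ 3 * c7 s 5 := Nat.mul_le_mul_right _ (by omega)
  have h6 : g * c7 s 6 ≤ 3 * c7 s 6 := Nat.mul_le_mul_right _ (by omega)
  omega

theorem fold_eq (t : ℕ → ℕ) (l : List ℕ) :
    (List.rec 0 (fun c _ ih => Nat.add ih (t c)) l : ℕ) = (l.map t).sum := by
  induction l with
  | nil => rfl
  | cons c l ih =>
    rw [List.map_cons, List.sum_cons, ← ih, add_comm]
    rfl

theorem sum_range_list (t : ℕ → ℕ) (n : ℕ) : ((List.range n).map t).sum = ∑ s ∈ Finset.range n, t s := by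
  induction n with
  | zero => rfl
  | succ n ih => rw [List.range_succ, List.map_append, List.sum_append, ih, Finset.sum_range_succ]; simp

theorem cq_sum (X : ℕ) : cq X = (sh7.map fun c => (4 >>> ((X >>> c) &&& 3)) &&& 1).sum :=
  fold_eq (fun c => (4 >>> ((X >>> c) &&& 3)) &&& 1) sh7

theorem co_sum (X : ℕ) : co X = (sh7.map fun c => (X >>> c) &&& 1).sum :=
  fold_eq (fun c => (X >>> c) &&& 1) sh7

theorem t_four : ∀ x < 4, (4 >>> x) &&& 1 = if x = 2 then 1 else 0 := by decide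

theorem cq_of {X : ℕ} {f : ℕ → ℕ} (h : ∀ s < 63, X / 64 ^ s % 64 = f s) :
    cq X = ∑ s ∈ Finset.range 63, if f s % 4 = 2 then 1 else 0 := by
  rw [cq_sum, sh7_eq, List.map_map, sum_range_list]
  refine Finset.sum_congr rfl fun s hs => ?_
  rw [Finset.mem_range] at hs
  have h2 := h s hs
  have h3 : (X >>> (6 * s)) &&& 3 = f s % 4 := by
    rw [Nat.shiftRight_eq_div_pow, pow_mul, show (2 : ℕ) ^ 6 = 64 by norm_num,
      show (3 : ℕ) = 2 ^ 2 - 1 by norm_num, Nat.and_two_pow_sub_one_eq_mod, show (2 : ℕ) ^ 2 = 4 by norm_num, ← h2]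
    omega
  have h4 := t_four (f s % 4) (Nat.mod_lt _ (by norm_num))
  rw [Function.comp_apply, h3, h4]

theorem co_of {X : ℕ} {f : ℕ → ℕ} (h : ∀ s < 63, X / 64 ^ s % 64 = f s) :
    co X = ∑ s ∈ Finset.range 63, if f s % 2 = 1 then 1 else 0 := by
  rw [co_sum, sh7_eq, List.map_map, sum_range_list]
  refine Finset.sum_congr rfl fun s hs => ?_
  rw [Finset.mem_range] at hs
  have h2 := h s hs
  have h3 : (X >>> (6 * s)) &&& 1 = f s % 2 := by
    rw [Nat.shiftRight_eq_div_pow, pow_mul, show (2 : ℕ) ^ 6 = 64 by norm_num, Nat.and_one_is_mod, ← h2]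
    omega
  rw [Function.comp_apply, h3]
  split_ifs <;> omega

theorem cq_eq {f : ℕ → ℕ} (hf : ∀ i, f i < 64) : cq (pk f 63) = ∑ s ∈ Finset.range 63, if f s % 4 = 2 then 1 else 0 :=
  cq_of fun s hs => pk_get f hf s 63 hs

theorem co_eq {f : ℕ → ℕ} (hf : ∀ i, f i < 64) : co (pk f 63) = ∑ s ∈ Finset.range 63, if f s % 2 = 1 then 1 else 0 :=
  co_of fun s hs => pk_get f hf s 63 hs

/-! ### the roots -/

theorem vec_spec : ∀ s < 63, ∀ j : Fin 7, vec chevE7 7 s j = -(c7 s j : ℤ) ∧ vec chevE7 7 (125 - s) j = c7 s j := by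
  decide +kernel

theorem nroots_E7 : chevE7.nroots = 126 := by decide +kernel

/-- counting over the roots by a condition which is the same on `s` and `125 - s` -/
theorem card_roots (Q : (Fin 7 → ℤ) → Prop) [DecidablePred Q] (q : ℕ → Prop) [DecidablePred q]
    (h1 : ∀ s < 63, Q (vec chevE7 7 s) ↔ q s) (h2 : ∀ s < 63, Q (vec chevE7 7 (125 - s)) ↔ q s) :
    Nat.card {s : Fin chevE7.nroots // Q (vec chevE7 7 s)} = 2 * ∑ s ∈ Finset.range 63, if q s then 1 else 0 := by
  have e1 : Nat.card {s : Fin chevE7.nroots // Q (vec chevE7 7 s)} =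
      ∑ s ∈ Finset.range 126, if Q (vec chevE7 7 s) then 1 else 0 := by
    rw [Nat.card_eq_fintype_card, Fintype.card_subtype, Finset.card_filter, ← nroots_E7]
    exact (Fin.sum_univ_eq_sum_range (fun s => if Q (vec chevE7 7 s) then 1 else 0) chevE7.nroots)
  have e2 : ∑ s ∈ Finset.range 63, (if Q (vec chevE7 7 (63 + s)) then 1 else 0) =
      ∑ s ∈ Finset.range 63, if q s then 1 else 0 := by
    rw [← Finset.sum_range_reflect]
    refine Finset.sum_congr rfl fun s hs => ?_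
    rw [Finset.mem_range] at hs
    have h3 : 63 + (63 - 1 - s) = 125 - s := by omega
    rw [h3]
    exact if_congr (h2 s hs) rfl rfl
  have e3 : ∑ s ∈ Finset.range 63, (if Q (vec chevE7 7 s) then 1 else 0) =
      ∑ s ∈ Finset.range 63, if q s then 1 else 0 :=
    Finset.sum_congr rfl fun s hs => if_congr (h1 s (Finset.mem_range.1 hs)) rfl rfl
  rw [e1, show 126 = 63 + 63 by norm_num, Finset.sum_range_add, e2, e3]
  ring

/-- **the table**: `e : Fin 7 → ℤ` -/
theorem exists_digits (e : Fin 7 → ℤ) : ∃ a b c d i f g : ℕ, a < 4 ∧ b < 4 ∧ c < 4 ∧ d < 4 ∧ i < 4 ∧ f < 4 ∧ g < 4 ∧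
    Nat.card {s : Fin chevE7.nroots // pr e (vec chevE7 7 s) % 4 = 2} = 2 * cq (X7 a b c d i f g) ∧
    Nat.card {s : Fin chevE7.nroots // pr e (vec chevE7 7 s) % 2 = 1} = 2 * co (X7 a b c d i f g) ∧
    ((∀ j, e j % 2 = 0) → a % 2 = 0 ∧ b % 2 = 0 ∧ c % 2 = 0 ∧ d % 2 = 0 ∧ i % 2 = 0 ∧ f % 2 = 0 ∧ g % 2 = 0) := by
  have hd : ∀ j, ∃ n : ℕ, n < 4 ∧ (n : ℤ) = e j % 4 := fun j => by
    have h5 := Int.emod_nonneg (e j) (by norm_num : (4 : ℤ) ≠ 0)
    have h6 := Int.emod_lt_of_pos (e j) (by norm_num : (0 : ℤ) < 4)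
    exact ⟨(e j % 4).toNat, by omega, by omega⟩
  choose n hn hne using hd
  have hv : ∀ i, va (n 0) (n 1) (n 2) (n 3) (n 4) (n 5) (n 6) i < 64 := va_lt (hn 0) (hn 1) (hn 2) (hn 3) (hn 4) (hn 5) (hn 6)
  obtain ⟨t, ht⟩ : ∃ t : Fin 7 → ℤ, ∀ j, e j = n j + 4 * t j :=
    ⟨fun j => e j / 4, fun j => by have := hne j; show e j = n j + 4 * (e j / 4); omega⟩
  have hval : ∀ s < 63, ∃ m : ℤ, pr e (vec chevE7 7 s) = -(va (n 0) (n 1) (n 2) (n 3) (n 4) (n 5) (n 6) s : ℤ) + 4 * m := by
    intro s hs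
    have h := fun j => (vec_spec s hs j).1
    refine ⟨-((c7 s 0 : ℤ) * t 0 + c7 s 1 * t 1 + c7 s 2 * t 2 + c7 s 3 * t 3 + c7 s 4 * t 4 + c7 s 5 * t 5 +
      c7 s 6 * t 6), ?_⟩
    unfold pr va
    rw [Fin.sum_univ_seven, h 0, h 1, h 2, h 3, h 4, h 5, h 6, ht 0, ht 1, ht 2, ht 3, ht 4, ht 5, ht 6]
    simp only [Fin.val_zero, Fin.val_one, Fin.val_two, show ((3 : Fin 7) : ℕ) = 3 from rfl,
      show ((4 : Fin 7) : ℕ) = 4 from rfl, show ((5 : Fin 7) : ℕ) = 5 from rfl, show ((6 : Fin 7) : ℕ) = 6 from rfl]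
    push_cast
    ring
  have hval' : ∀ s < 63, ∃ m : ℤ, pr e (vec chevE7 7 (125 - s)) =
      (va (n 0) (n 1) (n 2) (n 3) (n 4) (n 5) (n 6) s : ℤ) + 4 * m := by
    intro s hs
    have h := fun j => (vec_spec s hs j).2
    refine ⟨((c7 s 0 : ℤ) * t 0 + c7 s 1 * t 1 + c7 s 2 * t 2 + c7 s 3 * t 3 + c7 s 4 * t 4 + c7 s 5 * t 5 +
      c7 s 6 * t 6), ?_⟩
    unfold pr va
    rw [Fin.sum_univ_seven, h 0, h 1, h 2, h 3, h 4, h 5, h 6, ht 0, ht 1, ht 2, ht 3, ht 4, ht 5, ht 6]
    simp only [Fin.val_zero, Fin.val_one, Fin.val_two, show ((3 : Fin 7) : ℕ) = 3 from rfl,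
      show ((4 : Fin 7) : ℕ) = 4 from rfl, show ((5 : Fin 7) : ℕ) = 5 from rfl, show ((6 : Fin 7) : ℕ) = 6 from rfl]
    push_cast
    ring
  refine ⟨n 0, n 1, n 2, n 3, n 4, n 5, n 6, hn 0, hn 1, hn 2, hn 3, hn 4, hn 5, hn 6, ?_, ?_, fun h => ?_⟩
  · rw [X7_eq, cq_eq hv]
    refine card_roots (fun v => pr e v % 4 = 2) _ (fun s hs => ?_) (fun s hs => ?_)
    · obtain ⟨m, hm⟩ := hval s hs
      simp only [hm]
      omega
    · obtain ⟨m, hm⟩ := hval' s hs
      simp only [hm]
      omega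
  · rw [X7_eq, co_eq hv]
    refine card_roots (fun v => pr e v % 2 = 1) _ (fun s hs => ?_) (fun s hs => ?_)
    · obtain ⟨m, hm⟩ := hval s hs
      simp only [hm]
      omega
    · obtain ⟨m, hm⟩ := hval' s hs
      simp only [hm]
      omega
  · have h7 : ∀ j, n j % 2 = 0 := fun j => by have h1 := h j; have h2 := hne j; omega
    exact ⟨h7 0, h7 1, h7 2, h7 3, h7 4, h7 5, h7 6⟩

theorem four_tab (e : Fin 7 → ℤ) (h : Nat.card {s : Fin chevE7.nroots // pr e (vec chevE7 7 s) % 2 = 1} = 64) :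
    Nat.card {s : Fin chevE7.nroots // pr e (vec chevE7 7 s) % 4 = 2} ∈ [2, 20, 30, 32, 34, 36] := by
  obtain ⟨a, b, c, d, i, f, g, ha, hb, hc, hd, hi, hf, hg, h1, h2, -⟩ := exists_digits e
  rw [h2] at h
  rw [h1]
  have h3 := tab_four
  simp only [List.all_eq_true, List.mem_range] at h3
  have h4 := h3 a ha b hb c hc d hd i hi f hf g hg
  have h5 : co (X7 a b c d i f g) = 32 := by omega
  unfold ok7 at h4
  rw [h5] at h4
  have h6 : Nat.beq (Nat.land (Nat.shiftRight 492546 (cq (X7 a b c d i f g))) 1) 1 = true := by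
    simpa using h4
  have h7 : (492546 >>> cq (X7 a b c d i f g)) &&& 1 = 1 := Nat.eq_of_beq_eq_true h6
  generalize cq (X7 a b c d i f g) = x at h7 ⊢
  have h8 : x < 19 := by
    by_contra h9
    have h10 : 492546 >>> x = 0 := by
      rw [Nat.shiftRight_eq_div_pow]
      refine Nat.div_eq_of_lt (lt_of_lt_of_le (by norm_num : 492546 < 2 ^ 19) (Nat.pow_le_pow_right (by norm_num) (by omega)))
    rw [h10] at h7
    exact absurd h7 (by decide)
  revert h7
  revert x
  decide +kernel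

theorem inv_tab (e : Fin 7 → ℤ) (h : ∀ j, e j % 2 = 0) :
    Nat.card {s : Fin chevE7.nroots // pr e (vec chevE7 7 s) % 4 = 2} ∈ [0, 54, 64, 70] := by
  obtain ⟨a, b, c, d, i, f, g, ha, hb, hc, hd, hi, hf, hg, h1, h2, h3⟩ := exists_digits e
  obtain ⟨ha', hb', hc', hd', hi', hf', hg'⟩ := h3 h
  rw [h1]
  have key : ∀ a < 2, ∀ b < 2, ∀ c < 2, ∀ d < 2, ((List.range 2).all fun i => (List.range 2).all fun f =>
      (List.range 2).all fun g => [0, 27, 32, 35].contains (cq (X7 (2 * a) (2 * b) (2 * c) (2 * d) (2 * i) (2 * f) (2 * g))))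
        = true := by
    decide +kernel
  have h4 := key (a / 2) (by omega) (b / 2) (by omega) (c / 2) (by omega) (d / 2) (by omega)
  simp only [List.all_eq_true, List.mem_range] at h4
  have h5 := h4 (i / 2) (by omega) (f / 2) (by omega) (g / 2) (by omega)
  rw [show 2 * (a / 2) = a by omega, show 2 * (b / 2) = b by omega, show 2 * (c / 2) = c by omega,
    show 2 * (d / 2) = d by omega, show 2 * (i / 2) = i by omega, show 2 * (f / 2) = f by omega,
    show 2 * (g / 2) = g by omega] at h5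
  simp only [List.contains_eq_mem, List.mem_cons, List.not_mem_nil, or_false, decide_eq_true_eq] at h5 ⊢
  omega

/-! ### the group -/

open Cfsg.Agent.UGT.U2.FOne (isType_E7)
open Cfsg.Agent.GenExc.Chev (zS)

variable {F : Type} [Field F] [Fintype F]

theorem two_ne (ho : Odd (Fintype.card F)) : (2 : F) ≠ 0 := by
  intro h
  obtain ⟨p, hp⟩ := CharP.exists F
  have hpp : Fact p.Prime := ⟨CharP.char_is_prime F p⟩
  have h1 : ((2 : ℕ) : F) = 0 := by exact_mod_cast h
  rw [CharP.cast_eq_zero_iff F p] at h1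
  have h2 : p = 2 := (Nat.prime_dvd_prime_iff_eq hpp.out Nat.prime_two).1 h1
  subst h2
  obtain ⟨n, -, hn⟩ := FiniteField.card F 2
  rw [hn] at ho
  exact (Nat.not_even_iff_odd.2 ho) ((Nat.even_pow.2 ⟨even_two, n.pos.ne'⟩))

theorem mL_one {D : ChevalleyDatum} (h2 : (2 : F) ≠ 0) : mL D (1 : ↥(D.group F)) = 0 := by
  unfold mL mm
  have h1 : LinearMap.ker (Matrix.toLin' (((1 : ↥(D.group F)) : GL D.Idx F) : Matrix D.Idx D.Idx F) + 1) = ⊥ := by
    rw [LinearMap.ker_eq_bot']
    intro v hv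
    rw [OneMemClass.coe_one, Units.val_one, Matrix.toLin'_one, LinearMap.add_apply, LinearMap.id_apply,
      Module.End.one_apply] at hv
    have h3 : (2 : F) • v = 0 := by rw [two_smul]; exact hv
    exact (smul_eq_zero.1 h3).resolve_left h2
  rw [h1, finrank_bot]

/-- the simple roots -/
theorem even_of_roots {e : Fin 7 → ℤ} (h : ∀ s < chevE7.nroots, pr e (vec chevE7 7 s) % 2 = 0) (j : Fin 7) :
    e j % 2 = 0 := by
  obtain ⟨r, hr, hrj⟩ := (isRoot_iff isType_E7 (CoxeterMatrix.toCoxeterSystem _) (sr j)).1 (isRoot_sr _ _ j)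
  have h1 := h r hr
  rw [hrj] at h1
  have h2 : pr e (sr j) = e j := by
    unfold pr
    rw [Finset.sum_eq_single j]
    · simp [sr]
    · intro i _ hi
      simp [sr, hi]
    · intro h; exact absurd (Finset.mem_univ _) h
  rwa [h2] at h1

/-- **X0a**: the involutions of `E₇(q)` -/
theorem inv_dim' (ho : Odd (Fintype.card F)) {g : ↥(chevE7.group F)} (hg : g * g = 1) :
    mL chevE7 g ∈ [0, 54, 64, 70] := by
  have h4 : g ^ 4 = 1 := by
    have : g ^ 4 = g * g * (g * g) := by simp only [pow_succ, pow_zero, one_mul, mul_assoc]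
    rw [this, hg, one_mul]
  obtain ⟨e, h1, h5, h6, h7⟩ := exists_exp isType_E7 (two_ne ho) h4
  rw [h1]
  exact inv_tab e (even_of_roots (h7 hg))

/-- **X0b**: elements with square `z`, `m(z) = 64` -/
theorem four_dim (ho : Odd (Fintype.card F)) {g z : ↥(chevE7.group F)} (hg : g * g = z) (hz : z * z = 1)
    (h64 : mL chevE7 z = 64) : mL chevE7 g ∈ [2, 20, 30, 32, 34, 36] := by
  have h4 : g ^ 4 = 1 := by
    have : g ^ 4 = g * g * (g * g) := by simp only [pow_succ, pow_zero, one_mul, mul_assoc]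
    rw [this, hg, hz]
  obtain ⟨e, h1, h5, h6, h7⟩ := exists_exp isType_E7 (two_ne ho) h4
  rw [hg, h64] at h5
  rw [h1]
  exact four_tab e h5.symm

/-- **X0c**: the classical class -/
theorem conj_of_64 (ho : Odd (Fintype.card F)) {z : ↥(chevE7.group F)} (hz : z * z = 1) (h64 : mL chevE7 z = 64) :
    IsConj (zS isType_E7 F [0]) z := by
  refine Cfsg.Agent.H553.KKL.conj_of_four ho hz ?_ ?_
  · rintro rfl
    rw [mL_one (two_ne ho)] at h64
    exact absurd h64 (by norm_num)
  · have h1 : finrank F ↥(LinearMap.ker (Cfsg.Agent.H167.EX.rho chevE7 F z + 1)) = 64 := h64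
    rw [h1]
    norm_num

/-- **X0a**: the involutions of `E₇(q)` -/
theorem inv_dim (ho : Odd (Fintype.card F)) {g : ↥(chevE7.group F)} (hg : g * g = 1) (hg1 : g ≠ 1) :
    mL chevE7 g = 54 ∨ mL chevE7 g = 64 ∨ mL chevE7 g = 70 := by
  have h4 : g ^ 4 = 1 := by
    have : g ^ 4 = g * g * (g * g) := by simp only [pow_succ, pow_zero, one_mul, mul_assoc]
    rw [this, hg, one_mul]
  obtain ⟨e, h1, h5, h6, h7⟩ := exists_exp isType_E7 (two_ne ho) h4
  have h8 := inv_tab e (even_of_roots (h7 hg))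
  rw [← h1] at h8
  simp only [List.mem_cons, List.not_mem_nil, or_false] at h8
  rcases h8 with h8 | h8
  · exfalso
    apply hg1
    refine h6 fun s hs => ?_
    have h9 : IsEmpty {s : Fin chevE7.nroots // pr e (vec chevE7 7 s) % 4 = 2} := by
      rw [h8] at h1
      exact (Nat.card_eq_zero.1 h1.symm).resolve_right (fun h => (not_infinite_iff_finite.2 inferInstance) h)
    have h10 := h7 hg s hs
    have h11 : ¬ pr e (vec chevE7 7 s) % 4 = 2 := fun h => h9.false ⟨⟨s, hs⟩, h⟩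
    omega
  · exact h8

end Cfsg.Agent.H167.Co3
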