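import Cfsg.Agent.H249.Co3.RelRD
import Cfsg.Agent.H921.Co3.Glue7E

/-!
# S1920, `E₇(q)`: the number `hR` of GLUE7 (helper167)

* `surj7` : every pair (trace zero, skew) is the value `(th2 v, th6 v)` of a `v ∈ LP F` (dimensions `69 = 3 + 66`);
* `hR7` : `Rl7 z g a M` implies `dim (ker (ρ g + 1) ⊓ ker (ρ z - 1)) = dim (adS a) + dim (adB B M)`;
* `num7` : the numbers `Num7` for `RE (Rl7 z)`; `e7r` : `E7R`; `tt1`, `tt2`, `tt3` : the last fields of `E7I`.
-/

set_option autoImplicit false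
set_option maxRecDepth 100000

namespace Cfsg.Agent.H167.Co3

open Cfsg.Lie Cfsg.Agent.ChevalleyStructure.XColumns Matrix Module
open Cfsg.Agent.H736.Co3 Cfsg.Agent.H249.Co3 Cfsg.Agent.H921.Co3.Sim
open Cfsg.Agent.LieClassical.OrthCore Cfsg.Agent.LieClassical.OrthForms

/-! ### dimensions -/

section Dim

/-- the independent entries of the skew matrices -/
abbrev PP6 : Type := {p : (Fin 6 ⊕ Fin 6) × (Fin 6 ⊕ Fin 6) //
  12 * nx 6 p.1 + nx 6 p.2 < 12 * nx 6 p.2.swap + nx 6 p.1.swap}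

theorem card_PP6 : Fintype.card PP6 = 66 := by decide +kernel

/-- the indices of the Lie algebra of `A₁D₆` -/
def gdI : chevE7.Idx → Bool := Sum.elim (fun _ => true) fun s => T6.In s

abbrev I69 : Type := {j : chevE7.Idx // gdI j = true}

theorem card_I69 : Fintype.card I69 = 69 := by decide +kernel

theorem trc_1 : ((List.range 7).all fun k => decide (ent (T2.H k) 0 0 + ent (T2.H k) 1 1 = 0)) = true := by decide +kernel

theorem trc_2 : ((List.range 126).all fun s => decide (ent (T2.E s) 0 0 = 0) && decide (ent (T2.E s) 1 1 = 0)) = true := by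
  decide +kernel

variable {F : Type} [Field F]

/-- the trace of `th2` -/
theorem trace2 (v : chevE7.Idx → F) : (th2 F v).trace = 0 := by
  have h1 : (th2 F v).trace = (Th T2 chevE7 F v : Matrix (Fin 1 ⊕ Fin 1) (Fin 1 ⊕ Fin 1) F) (ix 1 0) (ix 1 0) +
      (Th T2 chevE7 F v : Matrix (Fin 1 ⊕ Fin 1) (Fin 1 ⊕ Fin 1) F) (ix 1 1) (ix 1 1) := by
    rw [Matrix.trace_fin_two]; rfl
  have e1 := Th_ent T2_ok (F := F) (v := v) (i := 0) (j := 0) (by show 0 < 1 + 1; omega) (by show 0 < 1 + 1; omega)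
  have e2 := Th_ent T2_ok (F := F) (v := v) (i := 1) (j := 1) (by show 1 < 1 + 1; omega) (by show 1 < 1 + 1; omega)
  have e3 : ∑ s : Fin chevE7.nroots, v (Sum.inr s) * (2 * (ent (T2.E s) 0 0 : F)) = 0 :=
    Finset.sum_eq_zero fun s _ => by
      have h3 := List.all_eq_true.1 trc_2 s (List.mem_range.2 s.2)
      rw [Bool.and_eq_true, decide_eq_true_eq, decide_eq_true_eq] at h3
      rw [h3.1, Int.cast_zero, mul_zero, mul_zero]
  have e4 : ∑ s : Fin chevE7.nroots, v (Sum.inr s) * (2 * (ent (T2.E s) 1 1 : F)) = 0 :=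
    Finset.sum_eq_zero fun s _ => by
      have h3 := List.all_eq_true.1 trc_2 s (List.mem_range.2 s.2)
      rw [Bool.and_eq_true, decide_eq_true_eq, decide_eq_true_eq] at h3
      rw [h3.2, Int.cast_zero, mul_zero, mul_zero]
  rw [e3, add_zero] at e1
  rw [e4, add_zero] at e2
  rw [h1]
  have e5 : (Th T2 chevE7 F v : Matrix (Fin 1 ⊕ Fin 1) (Fin 1 ⊕ Fin 1) F) (ix 1 0) (ix 1 0) =
    ∑ k : Fin chevE7.rank, v (Sum.inl k) * (ent (T2.H k) 0 0 : F) := e1
  have e6 : (Th T2 chevE7 F v : Matrix (Fin 1 ⊕ Fin 1) (Fin 1 ⊕ Fin 1) F) (ix 1 1) (ix 1 1) =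
    ∑ k : Fin chevE7.rank, v (Sum.inl k) * (ent (T2.H k) 1 1 : F) := e2
  rw [e5, e6, ← Finset.sum_add_distrib]
  refine Finset.sum_eq_zero fun k _ => ?_
  have h3 := of_decide_eq_true (List.all_eq_true.1 trc_1 k (List.mem_range.2 k.2))
  rw [← mul_add, ← Int.cast_add, h3, Int.cast_zero, mul_zero]

/-- `th6` is skew -/
theorem skew6 {v : chevE7.Idx → F} (hv : v ∈ LP F) : st (th6 F v) = - th6 F v := T6_ok2.stTh T6_ok hv

/-- trace zero and skew -/
def WW (F : Type) [Field F] : Submodule F (Matrix (Fin 2) (Fin 2) F × M12 F) where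
  carrier := {p | p.1.trace = 0 ∧ st p.2 = - p.2}
  add_mem' := by
    rintro ⟨a, A⟩ ⟨b, B⟩ ⟨h1, h2⟩ ⟨h3, h4⟩
    refine ⟨by show (a + b).trace = 0; rw [Matrix.trace_add, h1, h3, add_zero], ?_⟩
    show st (A + B) = - (A + B)
    rw [st_add, h2, h4, neg_add]
  zero_mem' := ⟨Matrix.trace_zero _ _, by show st (0 : M12 F) = - 0; rw [neg_zero]; rfl⟩
  smul_mem' := by
    rintro c ⟨a, A⟩ ⟨h1, h2⟩
    refine ⟨by show (c • a).trace = 0; rw [Matrix.trace_smul, h1, smul_zero], ?_⟩
    show st (c • A) = - (c • A)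
    rw [st_smul, h2, smul_neg]

theorem finrank_WW (h2 : (2 : F) ≠ 0) : finrank F (WW F) ≤ 69 := by
  let κ : WW F →ₗ[F] (Fin 3 → F) × (PP6 → F) :=
    { toFun := fun p => (![p.1.1 0 0, p.1.1 0 1, p.1.1 1 0], fun q => p.1.2 q.1.1 q.1.2)
      map_add' := fun p q => by
        refine Prod.ext ?_ rfl
        funext i; fin_cases i <;> rfl
      map_smul' := fun c p => by
        refine Prod.ext ?_ rfl
        funext i; fin_cases i <;> rfl }
  have hinj : Function.Injective κ := by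
    rw [← LinearMap.ker_eq_bot, LinearMap.ker_eq_bot']
    rintro ⟨⟨a, A⟩, h1, h3⟩ h
    have h4 : ![a 0 0, a 0 1, a 1 0] = (0 : Fin 3 → F) := congrArg Prod.fst h
    have h5 : (fun q : PP6 => A q.1.1 q.1.2) = 0 := congrArg Prod.snd h
    have ha : a = 0 := by
      have e0 : a 0 0 = 0 := congrFun h4 0
      have e1 : a 0 1 = 0 := congrFun h4 1
      have e2 : a 1 0 = 0 := congrFun h4 2
      have e3 : a 1 1 = 0 := by
        have h6 : a.trace = 0 := h1
        rw [Matrix.trace_fin_two, e0, zero_add] at h6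
        exact h6
      ext i j
      fin_cases i <;> fin_cases j
      · exact e0
      · exact e1
      · exact e2
      · exact e3
    have hA : A = 0 := by
      have hsk : ∀ i j, A j.swap i.swap = - A i j := fun i j => congrFun (congrFun h3 i) j
      have hlt : ∀ i j : Fin 6 ⊕ Fin 6, 12 * nx 6 i + nx 6 j < 12 * nx 6 j.swap + nx 6 i.swap → A i j = 0 :=
        fun i j h => congrFun h5 ⟨(i, j), h⟩
      ext i j
      rw [Matrix.zero_apply]
      rcases lt_trichotomy (12 * nx 6 i + nx 6 j) (12 * nx 6 j.swap + nx 6 i.swap) with h6 | h6 | h6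
      · exact hlt i j h6
      · have l1 := nx_lt (m := 6) i
        have l2 := nx_lt (m := 6) j
        have l3 := nx_lt (m := 6) i.swap
        have l4 := nx_lt (m := 6) j.swap
        have h7 : nx 6 i = nx 6 j.swap := by omega
        have h8 : i = j.swap := by rw [← ix_nx i, h7, ix_nx]
        have h9 := hsk i j
        rw [h8, Sum.swap_swap] at h9
        rw [h8]
        have h10 : (2 : F) * A j.swap j = 0 := by linear_combination h9
        exact (mul_eq_zero.1 h10).resolve_left h2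
      · have h7 := hlt j.swap i.swap (by rw [Sum.swap_swap, Sum.swap_swap]; exact h6)
        rw [hsk, neg_eq_zero] at h7
        exact h7
    exact Subtype.ext (Prod.ext ha hA)
  have h1 := LinearMap.finrank_le_finrank_of_injective hinj
  rw [Module.finrank_prod, Module.finrank_fintype_fun_eq_card, Module.finrank_fintype_fun_eq_card, card_PP6,
    Fintype.card_fin] at h1
  exact h1

theorem le_finrank_LP : 69 ≤ finrank F (LP F) := by
  let κ : (I69 → F) →ₗ[F] LP F :=
    { toFun := fun f => ⟨fun j => if h : gdI j = true then f ⟨j, h⟩ else 0, fun s hs => by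
        have h1 : ¬ gdI (Sum.inr s) = true := by
          show ¬ T6.In s = true
          rw [hs]; exact Bool.false_ne_true
        exact dif_neg h1⟩
      map_add' := fun f g => by
        apply Subtype.ext
        funext j
        show (if h : gdI j = true then (f + g) ⟨j, h⟩ else 0) = (if h : gdI j = true then f ⟨j, h⟩ else 0) +
          (if h : gdI j = true then g ⟨j, h⟩ else 0)
        split_ifs
        · rfl
        · rw [add_zero]
      map_smul' := fun c f => by
        apply Subtype.ext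
        funext j
        show (if h : gdI j = true then (c • f) ⟨j, h⟩ else 0) = c • (if h : gdI j = true then f ⟨j, h⟩ else 0)
        split_ifs
        · rfl
        · rw [smul_zero] }
  have hinj : Function.Injective κ := by
    intro f g h
    funext j
    have h1 := congrFun (congrArg Subtype.val h) j.1
    change (if h : gdI j.1 = true then f ⟨j.1, h⟩ else 0) = (if h : gdI j.1 = true then g ⟨j.1, h⟩ else 0) at h1
    rw [dif_pos j.2, dif_pos j.2] at h1
    exact h1
  have h1 := LinearMap.finrank_le_finrank_of_injective hinj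
  rwa [Module.finrank_fintype_fun_eq_card, card_I69] at h1

/-- **joint surjectivity** -/
theorem surj7 (h2 : (2 : F) ≠ 0) {a : Matrix (Fin 2) (Fin 2) F} {A : M12 F} (ha : a.trace = 0) (hA : st A = - A) :
    ∃ v ∈ LP F, th2 F v = a ∧ th6 F v = A := by
  let φ : LP F →ₗ[F] WW F := LinearMap.codRestrict (WW F) ((((th2 F).prod (th6 F)) : (chevE7.Idx → F) →ₗ[F] _) ∘ₗ (LP F).subtype)
    fun v => ⟨trace2 _, skew6 v.2⟩
  have hinj : Function.Injective φ := by
    rw [← LinearMap.ker_eq_bot, LinearMap.ker_eq_bot']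
    intro v hv
    have h1 : (th2 F (v : chevE7.Idx → F), th6 F (v : chevE7.Idx → F)) = (0 : Matrix (Fin 2) (Fin 2) F × M12 F) :=
      congrArg Subtype.val hv
    exact Subtype.ext (Cfsg.Agent.H249.Co3.inj7 h2 v.2 (congrArg Prod.fst h1) (congrArg Prod.snd h1))
  have h1 := LinearMap.finrank_le_finrank_of_injective hinj
  have h3 := finrank_WW (F := F) h2
  have h4 := le_finrank_LP (F := F)
  have h5 : finrank F (LP F) = finrank F (WW F) := by omega
  obtain ⟨v, hv⟩ := (LinearMap.injective_iff_surjective_of_finrank_eq_finrank h5).1 hinj ⟨(a, A), ha, hA⟩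
  have h6 : (th2 F (v : chevE7.Idx → F), th6 F (v : chevE7.Idx → F)) = (a, A) := congrArg Subtype.val hv
  exact ⟨v, v.2, congrArg Prod.fst h6, congrArg Prod.snd h6⟩

end Dim

/-! ### the number -/

variable {F : Type} [Field F]

/-- the adjoint and the polar form -/
theorem skew_iff (A : M12 F) : st A = - A ↔ ∀ u v, BB F (Matrix.toLin' A u) v = - BB F u (Matrix.toLin' A v) := by
  rw [st_eq_neg_iff]
  refine forall_congr' fun u => forall_congr' fun v => ?_
  rw [BB_apply, BB_apply, Matrix.toLin'_apply, Matrix.toLin'_apply]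

/-- **hR** -/
theorem hR7 (h2 : (2 : F) ≠ 0) {z g : ↥(chevE7.group F)}
    (hz : ∀ v, ((z : GL chevE7.Idx F) : Matrix chevE7.Idx chevE7.Idx F) *ᵥ v = v ↔ v ∈ LP F)
    {a : Matrix (Fin 2) (Fin 2) F} {M : Module.End F (VV F)} (h : Rl7 z g a (LinearMap.toMatrix' M)) :
    finrank F ↥(LinearMap.ker (H392.KKL.rho chevE7 F g + 1) ⊓ LinearMap.ker (H392.KKL.rho chevE7 F z - 1)) =
      finrank F (adS a) + finrank F (adB (BB F) M) := by
  set M' := LinearMap.toMatrix' M with hM'
  have hMM : Matrix.toLin' M' = M := Matrix.toLin'_toMatrix' M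
  set gm := ((g : GL chevE7.Idx F) : Matrix chevE7.Idx chevE7.Idx F) with hgm
  have hgv : ∀ v, H392.KKL.rho chevE7 F g v = gm *ᵥ v := fun v => Matrix.toLin'_apply _ _
  have hzv : ∀ v, H392.KKL.rho chevE7 F z v = ((z : GL chevE7.Idx F) : Matrix chevE7.Idx chevE7.Idx F) *ᵥ v := fun v =>
    Matrix.toLin'_apply _ _
  have hmem : ∀ v, v ∈ LinearMap.ker (H392.KKL.rho chevE7 F g + 1) ⊓ LinearMap.ker (H392.KKL.rho chevE7 F z - 1) ↔
      gm *ᵥ v = - v ∧ v ∈ LP F := by
    intro v
    rw [Submodule.mem_inf, LinearMap.mem_ker, LinearMap.mem_ker, LinearMap.add_apply, LinearMap.sub_apply, hgv, hzv,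
      Module.End.one_apply, sub_eq_zero, hz, add_eq_zero_iff_eq_neg]
  -- `g` stabilises `LP`
  have hgL : ∀ v ∈ LP F, gm *ᵥ v ∈ LP F := by
    intro v hv
    rw [← hz, Matrix.mulVec_mulVec, hgm, ← Units.val_mul]
    have h3 : (z : GL chevE7.Idx F) * (g : GL chevE7.Idx F) = (g : GL chevE7.Idx F) * (z : GL chevE7.Idx F) :=
      (congrArg Subtype.val h.cz).symm
    rw [h3, Units.val_mul, ← Matrix.mulVec_mulVec, (hz v).2 hv]
  -- invertibility
  have hau : IsUnit a := (Matrix.isUnit_iff_isUnit_det _).2 (isUnit_iff_ne_zero.2 h.det)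
  obtain ⟨μ, hμ, hsim, -⟩ := h.sim
  have hMinj : Function.Injective M := by
    rw [← LinearMap.ker_eq_bot, LinearMap.ker_eq_bot']
    intro v hv
    refine BB_nd v fun w => ?_
    have h3 : ∀ u w : VV F, BB F (M u) (M w) = μ * BB F u w := by
      have h5 : ∀ v, plusForm 6 F (M v) = μ * plusForm 6 F v := fun v => by
        rw [← hsim, ← Matrix.toLin'_apply, hMM]
      intro u w
      rw [BB_apply, BB_apply]
      unfold QuadraticMap.polar
      rw [← map_add, h5, h5, h5]; ring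
    have h4 := h3 v w
    rw [hv, map_zero, LinearMap.zero_apply] at h4
    exact (mul_eq_zero.1 h4.symm).resolve_left hμ
  have hMu : IsUnit M := (LinearMap.isUnit_iff_ker_eq_bot _).2 (LinearMap.ker_eq_bot.2 hMinj)
  have hMu' : IsUnit M' := by
    obtain ⟨N, hN⟩ := hMu.exists_right_inv
    have h3 : M' * LinearMap.toMatrix' N = 1 := by
      rw [hM', ← LinearMap.toMatrix'_comp]
      have h4 : M ∘ₗ N = LinearMap.id := hN
      rw [h4, LinearMap.toMatrix'_id]
    exact ⟨⟨M', LinearMap.toMatrix' N, h3, mul_eq_one_comm.1 h3⟩, rfl⟩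
  let ψ : ↥(LinearMap.ker (H392.KKL.rho chevE7 F g + 1) ⊓ LinearMap.ker (H392.KKL.rho chevE7 F z - 1)) →ₗ[F]
      ↥(adS a) × ↥(adB (BB F) M) :=
    LinearMap.prod
      (LinearMap.codRestrict (adS a) (th2 F ∘ₗ Submodule.subtype _) fun v => by
        obtain ⟨h3, h4⟩ := (hmem v).1 v.2
        refine ⟨trace2 _, ?_⟩
        have h5 := h.d2 v h4
        rw [← hgm, h3, map_neg, neg_mul] at h5
        exact h5.symm)
      (LinearMap.codRestrict (adB (BB F) M) ((Matrix.toLin' : M12 F ≃ₗ[F] _).toLinearMap ∘ₗ th6 F ∘ₗ Submodule.subtype _)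
        fun v => by
        obtain ⟨h3, h4⟩ := (hmem v).1 v.2
        refine ⟨(skew_iff _).1 (skew6 h4), fun x => ?_⟩
        have h5 := h.d6 v h4
        rw [← hgm, h3, map_neg, neg_mul] at h5
        have h6 := congrArg (fun A : M12 F => A *ᵥ x) h5
        simp only [Matrix.neg_mulVec, ← Matrix.mulVec_mulVec] at h6
        have h7 : ∀ y, M y = M' *ᵥ y := fun y => by rw [← Matrix.toLin'_apply, hMM]
        show M (Matrix.toLin' (th6 F (v : chevE7.Idx → F)) x) = - Matrix.toLin' (th6 F (v : chevE7.Idx → F)) (M x)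
        rw [Matrix.toLin'_apply, Matrix.toLin'_apply, h7, h7, h6])
  have hψ1 : ∀ v, ((ψ v).1 : Matrix (Fin 2) (Fin 2) F) = th2 F (v : chevE7.Idx → F) := fun _ => rfl
  have hψ2 : ∀ v, ((ψ v).2 : Module.End F (VV F)) = Matrix.toLin' (th6 F (v : chevE7.Idx → F)) := fun _ => rfl
  have hbij : Function.Bijective ψ := by
    constructor
    · rw [injective_iff_map_eq_zero]
      intro v hv
      refine Subtype.ext (Cfsg.Agent.H249.Co3.inj7 h2 ((hmem v).1 v.2).2 ?_ ?_)
      · rw [← hψ1, hv]; rfl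
      · apply (Matrix.toLin' : M12 F ≃ₗ[F] _).injective
        rw [← hψ2, hv, map_zero]; rfl
    · rintro ⟨⟨s, hs1, hs2⟩, ⟨S, hS1, hS2⟩⟩
      have hSm : Matrix.toLin' (LinearMap.toMatrix' S) = S := Matrix.toLin'_toMatrix' S
      obtain ⟨v, hv, e1, e2⟩ := surj7 h2 (a := s) (A := LinearMap.toMatrix' S) hs1 ((skew_iff _).2 (by rw [hSm]; exact hS1))
      have hneg : gm *ᵥ v = - v := by
        rw [← add_eq_zero_iff_eq_neg]
        refine Cfsg.Agent.H249.Co3.inj7 h2 (Submodule.add_mem _ (hgL v hv) hv) ?_ ?_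
        · rw [map_add, e1]
          have h5 := h.d2 v hv
          rw [← hgm, e1, hs2] at h5
          have h6 : (th2 F (gm *ᵥ v) + s) * a = 0 := by rw [add_mul, h5, neg_add_cancel]
          exact (hau.mul_left_eq_zero).1 h6
        · rw [map_add, e2]
          have h5 := h.d6 v hv
          rw [← hgm, e2] at h5
          have h7 : M' * LinearMap.toMatrix' S = - (LinearMap.toMatrix' S * M') := by
            rw [hM', ← LinearMap.toMatrix'_comp, ← LinearMap.toMatrix'_comp, ← map_neg]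
            congr 1
            exact LinearMap.ext fun x => hS2 x
          rw [h7] at h5
          have h6 : (th6 F (gm *ᵥ v) + LinearMap.toMatrix' S) * M' = 0 := by rw [add_mul, h5, neg_add_cancel]
          exact (hMu'.mul_left_eq_zero).1 h6
      refine ⟨⟨v, (hmem v).2 ⟨hneg, hv⟩⟩, Prod.ext (Subtype.ext ?_) (Subtype.ext ?_)⟩
      · rw [hψ1]; exact e1
      · rw [hψ2]
        show Matrix.toLin' (th6 F v) = S
        rw [e2, hSm]
  have i1 : Module.Free F ↥(adS a) := Module.Free.of_divisionRing _ _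
  have i2 : @Module.Free F ↥(adB (BB F) M) _ (adB (BB F) M).addCommGroup.toAddCommMonoid (adB (BB F) M).module :=
    Module.Free.of_divisionRing F ↥(adB (BB F) M)
  have i2' : Module.Free F ↥(adB (BB F) M) := i2
  have i3 : Module.Finite F ↥(adB (BB F) M) := inferInstance
  rw [(LinearEquiv.ofBijective ψ hbij).finrank_eq]
  exact Module.finrank_prod (R := F) (M := ↥(adS a)) (M' := ↥(adB (BB F) M))

/-! ### the numbers of `E₇(q)` -/

theorem mul_self_of_Z7 {z : ↥(chevE7.group F)} (hZ : Z7 z) : z * z = 1 := by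
  apply Subtype.ext
  apply Units.ext
  show ((z : GL chevE7.Idx F) : Matrix chevE7.Idx chevE7.Idx F) * ((z : GL chevE7.Idx F) : Matrix chevE7.Idx chevE7.Idx F) = 1
  rw [show ((z : GL chevE7.Idx F) : Matrix chevE7.Idx chevE7.Idx F) = _ from hZ, Matrix.diagonal_mul_diagonal,
    ← Matrix.diagonal_one]
  congr 1
  funext j
  rcases j with j | j
  · exact one_mul 1
  · show (if _ then (1 : F) else -1) * (if _ then (1 : F) else -1) = 1
    split_ifs <;> ring

theorem finrank_LP (h2 : (2 : F) ≠ 0) : finrank F (LP F) = 69 := by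
  let φ : LP F →ₗ[F] WW F := LinearMap.codRestrict (WW F) ((((th2 F).prod (th6 F)) : (chevE7.Idx → F) →ₗ[F] _) ∘ₗ (LP F).subtype)
    fun v => ⟨trace2 _, skew6 v.2⟩
  have hinj : Function.Injective φ := by
    rw [← LinearMap.ker_eq_bot, LinearMap.ker_eq_bot']
    intro v hv
    have h1 : (th2 F (v : chevE7.Idx → F), th6 F (v : chevE7.Idx → F)) = (0 : Matrix (Fin 2) (Fin 2) F × M12 F) :=
      congrArg Subtype.val hv
    exact Subtype.ext (Cfsg.Agent.H249.Co3.inj7 h2 v.2 (congrArg Prod.fst h1) (congrArg Prod.snd h1))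
  have h1 := LinearMap.finrank_le_finrank_of_injective hinj
  have h3 := finrank_WW (F := F) h2
  have h4 := le_finrank_LP (F := F)
  omega

theorem card_Idx7 : Fintype.card chevE7.Idx = 133 := by decide +kernel

theorem finrank_neg (h2 : (2 : F) ≠ 0) {z : ↥(chevE7.group F)} (hZ : Z7 z) :
    finrank F ↥(LinearMap.ker (H392.KKL.rho chevE7 F z + 1)) = 64 := by
  have hzz : ∀ v, H392.KKL.rho chevE7 F z (H392.KKL.rho chevE7 F z v) = v := fun v => by
    rw [← Module.End.mul_apply, ← map_mul, mul_self_of_Z7 hZ, map_one, Module.End.one_apply]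
  have h1 := H127.Co3.split h2 (H392.KKL.rho chevE7 F z) hzz (N := ⊤) (P := LP F)
    (R := LinearMap.ker (H392.KKL.rho chevE7 F z + 1)) (fun _ _ => Submodule.mem_top)
    (fun x => by
      rw [← z_fix h2 hZ]
      exact ⟨fun h => ⟨Submodule.mem_top, (Matrix.toLin'_apply _ _).trans h⟩,
        fun h => ((Matrix.toLin'_apply _ _).symm.trans h.2)⟩)
    (fun x => by rw [H127.Co3.mem_kp]; exact ⟨fun h => ⟨Submodule.mem_top, h⟩, fun h => h.2⟩)
  rw [finrank_top, Module.finrank_fintype_fun_eq_card, card_Idx7, finrank_LP h2] at h1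
  omega

open Cfsg.Agent.H921.Co3.Glue7

/-- **the numbers** -/
theorem num7 [Fintype F] (ho : Odd (Fintype.card F)) {z : ↥(chevE7.group F)} (hZ : Z7 z) :
    Num7 z (BB F) (RE (Rl7 z)) (fun g => finrank F ↥(LinearMap.ker (H392.KKL.rho chevE7 F g + 1))) :=
  num7_E7 ho (mul_self_of_Z7 hZ) (finrank_neg (two_ne ho) hZ) (fun h => h.cz)
    (fun h _ => hR7 (two_ne ho) (z_fix (two_ne ho) hZ) h)

/-- the structure of GLUE7 -/
theorem e7r {z : ↥(chevE7.group F)} (R : RD z (Rl7 z)) (hex : ∀ g, g * z = z * g → ∃ a M, Rl7 z g a M)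
    (ι : Matrix.SpecialLinearGroup (Fin 2) F →* ↥(chevE7.group F)) (hι : ∀ x, Rl7 z (ι x) x 1) (hz : ι (-1) = z)
    (hz1 : z ≠ 1) : E7R z (BB F) (RE (Rl7 z)) ι where
  two := R.two
  dim := finrank_VV
  symm := BB_symm
  nd := BB_nd
  ex g hg := by
    obtain ⟨a, M, h⟩ := hex g hg
    obtain ⟨N, rfl⟩ := exists_end M
    exact ⟨a, N, h⟩
  cz := R.cz
  det := R.det
  sim := by
    intro g a M h
    obtain ⟨μ, h1, h3, -⟩ := R.sim h
    refine ⟨μ, h1, fun u v => ?_⟩
    have h5 : ∀ v, plusForm 6 F (M v) = μ * plusForm 6 F v := fun v => by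
      rw [← h3, ← Matrix.toLin'_apply, Matrix.toLin'_toMatrix']
    rw [BB_apply, BB_apply]
    unfold QuadraticMap.polar
    rw [← map_add, h5, h5, h5]; ring
  mul := by
    intro g a M g' a' M' h h'
    have h1 := R.mul h h'
    have : LinearMap.toMatrix' (M * M') = LinearMap.toMatrix' M * LinearMap.toMatrix' M' := LinearMap.toMatrix'_comp _ _
    unfold RE
    rw [this]; exact h1
  uniq := by
    intro g a M a' M' h h'
    obtain ⟨⟨c, -, h1⟩, d, -, h3⟩ := R.uniq h h'
    refine ⟨⟨c, h1⟩, d, ?_⟩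
    apply (LinearMap.toMatrix' (R := F) (m := Fin 6 ⊕ Fin 6) (n := Fin 6 ⊕ Fin 6)).injective
    rw [map_smul]; exact h3
  scal := by
    intro g a M c d h hc hd
    unfold RE
    rw [map_smul]
    exact R.scal h hc hd
  ker := by
    intro g h
    exact R.ker (RE_one.1 h)
  Rι x := RE_one.2 (hι x)
  ι_neg := hz
  z_ne := hz1

/-- `z ≠ 1` -/
theorem ne_one_of_Z7 (h2 : (2 : F) ≠ 0) {z : ↥(chevE7.group F)} (hZ : Z7 z) : z ≠ 1 := by
  rintro rfl
  have h := finrank_neg h2 hZ
  have h1 : H392.KKL.rho chevE7 F 1 + 1 = (2 : F) • 1 := by rw [map_one, two_smul]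
  have h3 : LinearMap.ker ((2 : F) • (1 : Module.End F (chevE7.Idx → F))) = ⊥ := by
    rw [LinearMap.ker_smul _ _ h2]; exact LinearMap.ker_id
  rw [h1, h3, finrank_bot] at h
  norm_num at h

section

variable [Fintype F] (ho : Odd (Fintype.card F)) {z : ↥(chevE7.group F)} (hZ : Z7 z) (R : RD z (Rl7 z))
  (hex : ∀ g, g * z = z * g → ∃ a M, Rl7 z g a M)
  (ι : Matrix.SpecialLinearGroup (Fin 2) F →* ↥(chevE7.group F)) (hι : ∀ x, Rl7 z (ι x) x 1) (hz : ι (-1) = z)

include ho hZ R hex ι hι hz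

theorem tt1 {n : ↥(chevE7.group F)} {M : Module.End F (VV F)} (h : RE (Rl7 z) n 1 M) (hn : n * n = 1)
    (hk : ∃ k, k * n * k⁻¹ = n * z) : ∃ ν : F, ν ≠ 0 ∧ M * M = ν ^ 2 • 1 ∧
      Cfsg.Agent.H627.Co3.Sym (BB F) M ∧
      (finrank F (LinearMap.ker (M + ν • 1)) = 4 ∨ finrank F (LinearMap.ker (M + ν • 1)) = 8) :=
  t1 (e7r R hex ι hι hz (ne_one_of_Z7 (two_ne ho) hZ)) (num7 ho hZ) h hn hk

theorem tt2 {n : ↥(chevE7.group F)} {M : Module.End F (VV F)} {ν : F} (h : RE (Rl7 z) n 1 M) (hn : n * n = z)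
    (hM : M * M = ν ^ 2 • 1) (hs : Cfsg.Agent.H627.Co3.Sym (BB F) M) :
    finrank F (LinearMap.ker (M + ν • 1)) ≠ 4 ∧ finrank F (LinearMap.ker (M + ν • 1)) ≠ 8 :=
  t2 (e7r R hex ι hι hz (ne_one_of_Z7 (two_ne ho) hZ)) (num7 ho hZ) h hn hM hs

theorem tt3 {n : ↥(chevE7.group F)} {a : Matrix (Fin 2) (Fin 2) F} {M : Module.End F (VV F)} {l : F}
    (h : RE (Rl7 z) n a M) (hn : n * n = z) (ha : ¬ ∃ c : F, a = c • 1) (hM : M * M = l • 1)
    (hs : Cfsg.Agent.H627.Co3.Sym (BB F) M) : IsSquare l :=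
  t3 (e7r R hex ι hι hz (ne_one_of_Z7 (two_ne ho) hZ)) (num7 ho hZ) h hn ha hM hs

end

end Cfsg.Agent.H167.Co3
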