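import Cfsg.Agent.H944.TorAnyChev
import Cfsg.Agent.H892.ElReg
import Cfsg.Agent.H953.Rank
import Cfsg.Agent.H392.KKL.Dim
import Cfsg.Agent.H129.TorusUntw

/-!
# S1920, X0: the `(-1)`-eigenspace on the Lie algebra of an element `g` with `g ^ 4 = 1`

`exists_exp` : `F` finite of odd characteristic, `g : D.group F`, `g ^ 4 = 1`: there is `e : Fin l → ℤ` such that
the dimension of the `(-1)`-eigenspace of `g` is the number of roots `r` with `⟨r, e⟩ ≡ 2 (mod 4)` and that of `g * g`
the number of roots with `⟨r, e⟩` odd.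
-/

set_option autoImplicit false
set_option linter.unusedSectionVars false

namespace Cfsg.Agent.H167.Co3

open CoxeterSystem Cfsg Cfsg.Lie Cfsg.Lie.ChevalleyDatum
open Cfsg.Agent.ChevalleyStructure Cfsg.Agent.ChevalleyStructure.Elts Cfsg.Agent.ChevalleyStructure.CoxeterGeom
  Cfsg.Agent.ChevalleyStructure.CoxeterGeomTypes Cfsg.Agent.ChevalleyStructure.NPerm
open Cfsg.Agent.Tits.Roots Cfsg.Agent.Nodes Cfsg.Agent.Nodes.Reps Cfsg.Agent.Nodes.BNOf
  Cfsg.Agent.Nodes.RGDChev Cfsg.Agent.Nodes.Bruhat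
open Cfsg.Agent.KFacts.RgdField Cfsg.Agent.KFacts.RgdChevCoord
open Cfsg.Agent.BpExc.TorAll Cfsg.Agent.BpExc.TorCent Cfsg.Agent.BpExc.TorChev Cfsg.Agent.BpExc.Tow
  Cfsg.Agent.BpExc.TowChev Cfsg.Agent.GpExc.Field
open Module

universe u

/-! ### matrices -/

/-- the dimension of the `(-1)`-eigenspace of a matrix -/
noncomputable def mm {k : Type*} [Field k] {ι : Type*} [Fintype ι] [DecidableEq ι] (A : Matrix ι ι k) : ℕ :=
  finrank k ↥(LinearMap.ker (Matrix.toLin' A + 1))

theorem mm_add_rank {k : Type*} [Field k] {ι : Type*} [Fintype ι] [DecidableEq ι] (A : Matrix ι ι k) :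
    (A + 1).rank + mm A = Fintype.card ι := by
  have h1 := LinearMap.finrank_range_add_finrank_ker (Matrix.toLin' (A + 1))
  have h2 : finrank k ↥(LinearMap.range (Matrix.toLin' (A + 1))) = (A + 1).rank := by
    rw [Matrix.toLin'_apply']
    rfl
  have h3 : Matrix.toLin' (A + 1) = Matrix.toLin' A + 1 := by
    rw [map_add, Matrix.toLin'_one]; rfl
  rw [h2, h3, finrank_fintype_fun_eq_card] at h1
  exact h1

/-- base change -/
theorem mm_map {k K : Type*} [Field k] [Field K] (f : k →+* K) {ι : Type*} [Fintype ι] [DecidableEq ι]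
    (A : Matrix ι ι k) : mm (A.map f) = mm A := by
  have h1 := mm_add_rank A
  have h2 := mm_add_rank (A.map f)
  have h3 : A.map f + 1 = (A + 1).map f := by
    ext i j
    rw [Matrix.add_apply, Matrix.map_apply, Matrix.map_apply, Matrix.add_apply, map_add]
    congr 1
    rw [Matrix.one_apply, Matrix.one_apply]
    split_ifs
    · rw [map_one]
    · rw [map_zero]
  rw [h3, Cfsg.Agent.H953.rank_map] at h2
  omega

/-- conjugation -/
theorem mm_conj {k : Type*} [Field k] {ι : Type*} [Fintype ι] [DecidableEq ι] (g A : GL ι k) :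
    mm ((g * A * g⁻¹ : GL ι k) : Matrix ι ι k) = mm (A : Matrix ι ι k) := by
  have h1 := mm_add_rank (A : Matrix ι ι k)
  have h2 := mm_add_rank ((g * A * g⁻¹ : GL ι k) : Matrix ι ι k)
  have h3 : ((g * A * g⁻¹ : GL ι k) : Matrix ι ι k) + 1 =
      (g : Matrix ι ι k) * ((A : Matrix ι ι k) + 1) * ((g⁻¹ : GL ι k) : Matrix ι ι k) := by
    have h4 : (g : Matrix ι ι k) * ((g⁻¹ : GL ι k) : Matrix ι ι k) = 1 := by
      rw [← Units.val_mul, mul_inv_cancel, Units.val_one]
    rw [mul_add, mul_one, add_mul, h4, Units.val_mul, Units.val_mul]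
  have hd1 : IsUnit (g : Matrix ι ι k).det := (Matrix.isUnit_iff_isUnit_det _).1 g.isUnit
  have hd2 : IsUnit ((g⁻¹ : GL ι k) : Matrix ι ι k).det := (Matrix.isUnit_iff_isUnit_det _).1 (g⁻¹).isUnit
  rw [h3, Matrix.rank_mul_eq_left_of_isUnit_det _ _ hd2, Matrix.rank_mul_eq_right_of_isUnit_det _ _ hd1] at h2
  omega

/-- diagonal matrices -/
theorem mm_diag {k : Type} [Field k] (h2 : (2 : k) ≠ 0) {m n : ℕ} (χ : Fin n → k) :
    mm (Matrix.diagonal (Sum.elim (fun _ : Fin m => (1 : k)) χ)) = Nat.card {s : Fin n // χ s = -1} := by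
  classical
  have h3 : Matrix.toLin' (Matrix.diagonal (Sum.elim (fun _ : Fin m => (1 : k)) χ)) + 1 =
      Matrix.toLin' (Matrix.diagonal (Sum.elim (fun _ : Fin m => (2 : k)) fun s => χ s + 1)) := by
    have h4 : Matrix.diagonal (Sum.elim (fun _ : Fin m => (2 : k)) fun s => χ s + 1) =
        Matrix.diagonal (Sum.elim (fun _ : Fin m => (1 : k)) χ) + 1 := by
      rw [← Matrix.diagonal_one, Matrix.diagonal_add]
      congr 1
      funext i
      rcases i with i | i
      · simp only [Sum.elim_inl]; norm_num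
      · simp only [Sum.elim_inr]
    rw [h4, map_add, Matrix.toLin'_one]
    rfl
  unfold mm
  rw [h3, Cfsg.Agent.H392.KKL.finrank_ker_diag]
  refine Nat.card_congr
    { toFun := fun i => match i with
        | ⟨Sum.inl _, h⟩ => (h2 h).elim
        | ⟨Sum.inr s, h⟩ => ⟨s, eq_neg_of_add_eq_zero_left h⟩
      invFun := fun s => ⟨Sum.inr s.1, by
        show χ s.1 + 1 = 0
        rw [s.2]; ring⟩
      left_inv := ?_
      right_inv := ?_ }
  · rintro ⟨i | i, h⟩
    · exact (h2 h).elim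
    · rfl
  · rintro ⟨s, hs⟩
    rfl

/-! ### the group -/

/-- the dimension of the `(-1)`-eigenspace of `g` on the Lie algebra -/
noncomputable def mL (D : ChevalleyDatum) {F : Type} [Field F] (g : ↥(D.group F)) : ℕ :=
  mm ((g : GL D.Idx F) : Matrix D.Idx D.Idx F)

theorem mL_rho {D : ChevalleyDatum} {F : Type} [Field F] (g : ↥(D.group F)) :
    mL D g = finrank F ↥(LinearMap.ker (Cfsg.Agent.H392.KKL.rho D F g + 1)) := rfl

theorem mL_conj {D : ChevalleyDatum} {F : Type} [Field F] (g x : ↥(D.group F)) : mL D (g * x * g⁻¹) = mL D x := by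
  unfold mL
  rw [Subgroup.coe_mul, Subgroup.coe_mul, Subgroup.coe_inv]
  exact mm_conj _ _

theorem mL_isConj {D : ChevalleyDatum} {F : Type} [Field F] {g x : ↥(D.group F)} (h : IsConj g x) : mL D x = mL D g := by
  obtain ⟨c, rfl⟩ := isConj_iff.1 h
  exact mL_conj c g

section Gen

variable {D : ChevalleyDatum} {l : ℕ} {M : CoxeterMatrix (Fin l)} (hp : IsType D l M)

/-- base change -/
theorem mL_emb {F K : Type} [Field F] [Field K] (f : F →+* K) (g : ↥(D.group F)) : mL D (emb hp.inList f g) = mL D g := by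
  unfold mL
  rw [coe_emb hp.inList]
  exact mm_map f _

theorem zpow_sum' {k : Type*} [Field k] {ι : k} (hι : ι ≠ 0) {J : Type*} (s : Finset J) (f : J → ℤ) :
    ι ^ (∑ j ∈ s, f j) = ∏ j ∈ s, ι ^ f j := by
  classical
  induction s using Finset.induction_on with
  | empty => simp
  | insert a s ha ih => rw [Finset.sum_insert ha, Finset.prod_insert ha, zpow_add₀ hι, ih]

/-- the value for the pairing -/
def pr {l : ℕ} (e : Fin l → ℤ) (b : Fin l → ℤ) : ℤ := ∑ j, b j * e j

variable {k : Type} [Field k] (p : ℕ) [Fact p.Prime] [CharP k p] (hk : LocFin k)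

include hk p in
/-- the dimension for an element of the torus -/
theorem mL_TT (h2 : (2 : k) ≠ 0) {x : ↥(D.group k)} (hx : x ∈ TT D k) :
    mL D x = Nat.card {s : Fin D.nroots // ch hp (vec D l s) x = -1} := by
  unfold mL
  rw [H892.El.coe_TT hp (r := p) hk hx]
  exact mm_diag h2 _

include hk p in
theorem ch_mul {x y : ↥(D.group k)} (hx : x ∈ TT D k) (hy : y ∈ TT D k) {b : Fin l → ℤ}
    (hb : IsRoot M.toCoxeterSystem hp.isCartan b) : ch hp b (x * y) = ch hp b x * ch hp b y :=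
  ((coordsL (k := k) hp M.toCoxeterSystem hk p).coord b hb).chi_mul hx hy

include hk p in
/-- the characters of an element with `x ^ 4 = 1` -/
theorem exists_e {ι : k} (hι : ι * ι = -1) {x : ↥(D.group k)} (hx : x ∈ TT D k) (h4 : x ^ 4 = 1) :
    ∃ e : Fin l → ℤ, ∀ b, IsRoot M.toCoxeterSystem hp.isCartan b → ch hp b x = ι ^ pr e b := by
  have hι0 : ι ≠ 0 := by
    rintro rfl
    rw [mul_zero] at hι
    exact one_ne_zero (neg_eq_zero.1 hι.symm)
  have h1 : ∀ b, IsRoot M.toCoxeterSystem hp.isCartan b → ch hp b (1 : ↥(D.group k)) = 1 := fun b hb => by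
    have h := ch_mul hp p hk (one_mem (TT D k)) (one_mem (TT D k)) hb
    rw [mul_one] at h
    have h0 := ((coordsL (k := k) hp M.toCoxeterSystem hk p).coord b hb).chi_ne_zero (one_mem (TT D k))
    exact (mul_eq_left₀ h0).1 h.symm
  have hpow : ∀ b, IsRoot M.toCoxeterSystem hp.isCartan b → ch hp b x ^ 4 = 1 := by
    intro b hb
    have e2 : ch hp b (x * x) = ch hp b x * ch hp b x := ch_mul hp p hk hx hx hb
    have e4 : ch hp b (x * x * (x * x)) = ch hp b (x * x) * ch hp b (x * x) :=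
      ch_mul hp p hk (mul_mem hx hx) (mul_mem hx hx) hb
    have h5 : x * x * (x * x) = 1 := by
      rw [← h4]
      simp only [pow_succ, pow_zero, one_mul, mul_assoc]
    rw [h5, h1 b hb, e2] at e4
    rw [e4]; ring
  have hfour : ∀ c : k, c ^ 4 = 1 → ∃ n : ℤ, c = ι ^ n := by
    intro c hc
    have h6 : (c - 1) * (c + 1) * ((c - ι) * (c + ι)) = 0 := by linear_combination hc + (c ^ 2 - 1) * (-hι)
    rcases mul_eq_zero.1 h6 with h7 | h7 <;> rcases mul_eq_zero.1 h7 with h8 | h8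
    · exact ⟨0, by rw [zpow_zero]; linear_combination h8⟩
    · refine ⟨2, ?_⟩
      rw [zpow_two, hι]; linear_combination h8
    · exact ⟨1, by rw [zpow_one]; linear_combination h8⟩
    · refine ⟨3, ?_⟩
      have : ι ^ (3 : ℤ) = ι * ι * ι := by
        rw [show (3 : ℤ) = 2 + 1 by norm_num, zpow_add₀ hι0, zpow_two, zpow_one]
      rw [this, hι]; linear_combination h8
  have hs : ∀ j : Fin l, ∃ n : ℤ, ch hp (sr j) x = ι ^ n := fun j =>
    hfour _ (hpow _ (isRoot_sr _ _ j))
  choose e he using hs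
  refine ⟨e, fun b hb => ?_⟩
  obtain ⟨φ, h0, hadd, hφ⟩ := chAddL hp M.toCoxeterSystem hk p x hx
  have hne : ∀ a, φ a ≠ 0 := by
    intro a ha
    have h2 := hadd a (-a)
    rw [add_neg_cancel, h0, ha, zero_mul] at h2
    exact one_ne_zero h2
  -- the character as a homomorphism
  let Φ : Multiplicative (Fin l → ℤ) →* kˣ := 
    { toFun := fun a => Units.mk0 (φ a.toAdd) (hne _)
      map_one' := Units.ext h0
      map_mul' := fun a c => Units.ext (hadd a.toAdd c.toAdd) }
  have hΦ : ∀ a : Fin l → ℤ, (Φ (Multiplicative.ofAdd a) : k) = φ a := fun a => rfl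
  have hb' : φ b = ι ^ pr e b := by
    have e1 : b = ∑ j, b j • (sr j : Fin l → ℤ) := by
      funext i
      rw [Finset.sum_apply]
      simp only [Pi.smul_apply, smul_eq_mul]
      rw [Finset.sum_eq_single i]
      · rw [show (sr i : Fin l → ℤ) i = 1 from by simp [sr], mul_one]
      · intro j _ hj
        rw [show (sr j : Fin l → ℤ) i = 0 from by simp [sr, hj.symm], mul_zero]
      · intro h; exact absurd (Finset.mem_univ _) h
    have e2 : Φ (Multiplicative.ofAdd b) = ∏ j, Φ (Multiplicative.ofAdd (sr j : Fin l → ℤ)) ^ b j := by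
      conv_lhs => rw [e1]
      rw [ofAdd_sum, map_prod]
      refine Finset.prod_congr rfl fun j _ => ?_
      rw [ofAdd_zsmul, map_zpow]
    have e3 := congrArg (Units.val : kˣ → k) e2
    rw [hΦ, Units.coe_prod] at e3
    rw [e3]
    unfold pr
    rw [zpow_sum' hι0]
    refine Finset.prod_congr rfl fun j _ => ?_
    rw [Units.val_zpow_eq_zpow_val, hΦ, ← hφ _ (isRoot_sr _ _ j), he j, ← zpow_mul, mul_comm (e j)]
  rw [hφ b hb]
  exact hb'

/-- powers of a square root of `-1` -/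
theorem zpow_eq_neg_one {ι : k} (h2 : (2 : k) ≠ 0) (hι : ι * ι = -1) (n : ℤ) : ι ^ n = -1 ↔ n % 4 = 2 := by
  have hι0 : ι ≠ 0 := by
    rintro rfl
    rw [mul_zero] at hι
    exact one_ne_zero (neg_eq_zero.1 hι.symm)
  have h4 : ι ^ (4 : ℤ) = 1 := by
    rw [show (4 : ℤ) = 2 + 2 by norm_num, zpow_add₀ hι0, zpow_two, hι]; ring
  have hn : ι ^ n = ι ^ (n % 4) := by
    conv_lhs => rw [← Int.emod_add_mul_ediv n 4, zpow_add₀ hι0, zpow_mul, h4, one_zpow, mul_one]
  have hne : (1 : k) ≠ -1 := fun h => h2 (by linear_combination h)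
  have h3 : ι ^ (3 : ℤ) = -ι := by
    rw [show (3 : ℤ) = 2 + 1 by norm_num, zpow_add₀ hι0, zpow_two, zpow_one, hι]; ring
  have hi : ι ≠ -1 := by
    rintro rfl
    exact hne (by linear_combination hι)
  have hi' : -ι ≠ -1 := by
    intro h
    have : ι = 1 := by linear_combination -h
    rw [this] at hι
    exact hne (by linear_combination hι)
  rw [hn]
  have h5 := Int.emod_nonneg n (by norm_num : (4 : ℤ) ≠ 0)
  have h6 := Int.emod_lt_of_pos n (by norm_num : (0 : ℤ) < 4)
  obtain h | h | h | h : n % 4 = 0 ∨ n % 4 = 1 ∨ n % 4 = 2 ∨ n % 4 = 3 := by omega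
  · rw [h, zpow_zero]; exact ⟨fun h' => absurd h' hne, fun h' => by omega⟩
  · rw [h, zpow_one]; exact ⟨fun h' => absurd h' hi, fun h' => by omega⟩
  · rw [h, zpow_two, hι]; exact ⟨fun _ => rfl, fun _ => rfl⟩
  · rw [h, h3]; exact ⟨fun h' => absurd h' hi', fun h' => by omega⟩

theorem zpow_sq_eq_neg_one {ι : k} (h2 : (2 : k) ≠ 0) (hι : ι * ι = -1) (n : ℤ) :
    ι ^ n * ι ^ n = -1 ↔ n % 2 = 1 := by
  have hι0 : ι ≠ 0 := by
    rintro rfl
    rw [mul_zero] at hι
    exact one_ne_zero (neg_eq_zero.1 hι.symm)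
  rw [← zpow_add₀ hι0, zpow_eq_neg_one h2 hι]
  omega

theorem zpow_eq_one' {ι : k} (hι : ι * ι = -1) {n : ℤ} (h : n % 4 = 0) : ι ^ n = 1 := by
  have hι0 : ι ≠ 0 := by
    rintro rfl
    rw [mul_zero] at hι
    exact one_ne_zero (neg_eq_zero.1 hι.symm)
  have h4 : ι ^ (4 : ℤ) = 1 := by
    rw [show (4 : ℤ) = 2 + 2 by norm_num, zpow_add₀ hι0, zpow_two, hι]; ring
  obtain ⟨m, rfl⟩ := Int.dvd_of_emod_eq_zero h
  rw [zpow_mul, h4, one_zpow]

theorem hAlg_of_locFin {k : Type} [Field k] {r : ℕ} [Fact r.Prime] [CharP k r] (hk : LocFin k) :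
    HAlg r k := by
  intro a
  obtain ⟨E, hE, haE⟩ := hk {a} (Set.finite_singleton a)
  have := Fintype.ofFinite ↥E
  have : CharP ↥E r := RingHom.charP E.subtype Subtype.val_injective r
  obtain ⟨n, -, hn⟩ := FiniteField.card ↥E r
  refine ⟨n, n.pos, ?_⟩
  have h1 := FiniteField.pow_card (⟨a, haE rfl⟩ : ↥E)
  rw [hn] at h1
  exact congrArg Subtype.val h1

include hp in
/-- **the dimensions of the `(-1)`-eigenspaces of `g` and `g * g`, `g ^ 4 = 1`** -/
theorem exists_exp {F : Type} [Field F] [Fintype F] (h2 : (2 : F) ≠ 0) {g : ↥(D.group F)} (h4 : g ^ 4 = 1) :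
    ∃ e : Fin l → ℤ, mL D g = Nat.card {s : Fin D.nroots // pr e (vec D l s) % 4 = 2} ∧
      mL D (g * g) = Nat.card {s : Fin D.nroots // pr e (vec D l s) % 2 = 1} ∧
      ((∀ s < D.nroots, pr e (vec D l s) % 4 = 0) → g = 1) ∧ (g * g = 1 → ∀ s < D.nroots, pr e (vec D l s) % 2 = 0) := by
  obtain ⟨r, n, hr, hrF, hrk, he, hqF, hk⟩ := Cfsg.Agent.H129.TorusUntw.exists_closure (F := F) rfl
  set K := AlgebraicClosure F with hK
  let f : F →+* K := algebraMap F K
  have h2k : (2 : K) ≠ 0 := by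
    intro h
    apply h2
    apply f.injective
    rw [map_ofNat, map_zero]
    exact h
  have hr2 : r ≠ 2 := by
    rintro rfl
    apply h2
    have := CharP.cast_eq_zero F 2
    exact_mod_cast this
  obtain ⟨ι, hι⟩ := IsAlgClosed.exists_pow_nat_eq (-1 : K) (n := 2) (by norm_num)
  rw [pow_two] at hι
  set x := emb hp.inList f g with hx
  have hx4 : x ^ 4 = 1 := by rw [hx, ← map_pow, h4, map_one]
  obtain ⟨c, hc⟩ := Cfsg.Agent.H944.TorAnyChev.exists_conj_mem_TT hp r (k := K) (x := x) (q := 4)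
    (hAlg_of_locFin hk) (by norm_num) (by
      have : Nat.Coprime 2 r := (Nat.coprime_primes Nat.prime_two (Fact.out : r.Prime)).2 (Ne.symm hr2)
      exact Nat.Coprime.pow_left 2 this) hx4
  set y := c * x * c⁻¹ with hy
  have hy4 : y ^ 4 = 1 := by rw [hy, conj_pow, hx4, mul_one, mul_inv_cancel]
  obtain ⟨e, he⟩ := exists_e hp r hk hι hc hy4
  have hroot : ∀ s : Fin D.nroots, IsRoot M.toCoxeterSystem hp.isCartan (vec D l s) :=
    fun s => isRoot_vec hp M.toCoxeterSystem s.2
  have e1 : mL D g = mL D y := by rw [hy, mL_conj, hx, mL_emb hp]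
  have e2 : mL D (g * g) = mL D (y * y) := by
    have : y * y = c * (x * x) * c⁻¹ := by rw [hy]; group
    rw [this, mL_conj, hx, ← map_mul, mL_emb hp]
  refine ⟨e, ?_, ?_, ?_, ?_⟩
  · rw [e1, mL_TT hp r hk h2k hc]
    refine Nat.card_congr (Equiv.subtypeEquivRight fun s => ?_)
    rw [he _ (hroot s), zpow_eq_neg_one h2k hι]
  · rw [e2, mL_TT hp r hk h2k (mul_mem hc hc)]
    refine Nat.card_congr (Equiv.subtypeEquivRight fun s => ?_)
    rw [ch_mul hp r hk hc hc (hroot s), he _ (hroot s), zpow_sq_eq_neg_one h2k hι]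
  · intro h
    have h1 : ((y : GL D.Idx K) : Matrix D.Idx D.Idx K) = 1 := by
      rw [H892.El.coe_TT (D := D) (l := l) (M := M) hp (r := r) hk hc, ← Matrix.diagonal_one]
      congr 1
      funext i
      rcases i with i | i
      · rfl
      · show ch hp (vec D l i) y = 1
        rw [he _ (hroot i), zpow_eq_one' hι (h i i.2)]
    have h2 : y = 1 := Subtype.ext (Units.ext h1)
    have h3 : x = 1 := by
      rw [hy] at h2
      exact conj_eq_one_iff.1 h2
    exact emb_injective hp.inList f (h3.trans (map_one _).symm)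
  · intro h s hs
    have h1 : y * y = 1 := by
      have : y * y = c * (x * x) * c⁻¹ := by rw [hy]; group
      rw [this, hx, ← map_mul, h, map_one, mul_one, mul_inv_cancel]
    have h3 := ch_mul hp r hk hc hc (hroot ⟨s, hs⟩)
    rw [h1] at h3
    have h4 : ch hp (vec D l s) (1 : ↥(D.group K)) = 1 := by
      have h5 := ch_mul hp r hk (one_mem (TT D K)) (one_mem (TT D K)) (hroot ⟨s, hs⟩)
      rw [mul_one] at h5
      have h0 := ((coordsL (k := K) hp M.toCoxeterSystem hk r).coord _ (hroot ⟨s, hs⟩)).chi_ne_zero (one_mem (TT D K))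
      exact (mul_eq_left₀ h0).1 h5.symm
    have h6 : ι ^ pr e (vec D l s) * ι ^ pr e (vec D l s) ≠ -1 := by
      rw [← he _ (hroot ⟨s, hs⟩), ← h3]
      show ch hp (vec D l s) (1 : ↥(D.group K)) ≠ -1
      rw [h4]
      intro h7
      exact h2k (by linear_combination h7)
    have h7 := mt (zpow_sq_eq_neg_one h2k hι (pr e (vec D l s))).2 h6
    omega

end Gen

end Cfsg.Agent.H167.Co3
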